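import Cfsg.Agent.R2.T1.Pat2.Typ2

/-!
# T1, PAT2 (helper26): cycle types

* `ct_P` : the cycle type of `P n l`;
* `ev_ct` : the multiplicities of the elements with a given cycle type;
* `pat2` : the patterns for `p = 2`, `n ≥ 8`.
-/

set_option autoImplicit false
set_option maxRecDepth 100000

namespace Cfsg.Agent.R2.T1.Pat2

open Equiv Equiv.Perm
open Cfsg Cfsg.Lie Module
open Cfsg.Agent.H943.E7V.Block (D1 rho)
open Cfsg.Agent.H952.F4 (ev es)
open Cfsg.Agent.R2.T1.Art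
open Cfsg.Agent.R2.T1.Odd

universe u

section ct
variable {n : ℕ} [NeZero n]

theorem pm_extend {m : ℕ} [NeZero m] (hm : m ≤ n) {l : List (ℕ × ℕ)} (h : En m l) :
    pm n l = (pm m l).extendDomain (Fin.castLEOrderIso hm).toEquiv := by
  refine Perm.ext fun i => Fin.ext ?_
  rw [pm_apply (h.mono hm)]
  by_cases hi : (i : ℕ) < m
  · rw [Perm.extendDomain_apply_subtype _ _ (b := i) hi]
    show _ = ((pm m l ⟨i, hi⟩ : Fin m) : ℕ)
    rw [pm_apply h]
  · rw [Perm.extendDomain_apply_not_subtype _ _ (b := i) hi, ap_ge h (by omega)]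

theorem ct_pm {m : ℕ} [NeZero m] (hm : m ≤ n) {l : List (ℕ × ℕ)} (h : En m l) :
    (pm n l).cycleType = (pm m l).cycleType := by
  rw [pm_extend hm h, Perm.cycleType_extendDomain]

theorem ct_P (hn : 8 ≤ n) {l : List (ℕ × ℕ)} (h : vl 8 l = true) :
    ((P n l : ↥(alternatingGroup (Fin n))) : Perm (Fin n)).cycleType = (pm 8 l).cycleType := by
  rw [coe_P hn h, ct_pm hn (vl_iff.1 h).2]

/-- elements with the same cycle type -/
theorem conj_ct (hn : 8 ≤ n) {w w' t : List (ℕ × ℕ)} (hw : vl 8 w = true) (hw' : vl 8 w' = true) (ht : En 8 t)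
    (ho : t.length % 2 = 1) (hc : cd 8 (t ++ w) = cd 8 (w' ++ t)) {a : ↥(alternatingGroup (Fin n))}
    (ha : (a : Perm (Fin n)).cycleType = (pm 8 w).cycleType) :
    ∃ g : ↥(alternatingGroup (Fin n)), a = g * P n w * g⁻¹ ∨ a = g * P n w' * g⁻¹ := by
  rw [← ct_P hn hw, ← isConj_iff_cycleType_eq, isConj_comm, isConj_iff] at ha
  obtain ⟨σ, hσ⟩ := ha
  rcases Int.units_eq_one_or (sign σ) with hs | hs
  · exact ⟨⟨σ, mem_alternatingGroup.2 hs⟩, Or.inl (Subtype.ext hσ.symm)⟩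
  · have hst : sign (pm n t) = -1 := by
      rw [sign_pm (ht.mono hn), Odd.neg_one_pow (Nat.odd_iff.2 ho)]
    have h1 : pm n t * pm n w = pm n w' * pm n t := by
      rw [← pm_append, ← pm_append]
      exact pm_eq hn (ht.append (vl_iff.1 hw).2) ((vl_iff.1 hw').2.append ht) hc
    have hs' : sign (σ * (pm n t)⁻¹) = 1 := by
      rw [map_mul, map_inv, hs, hst]
      rfl
    refine ⟨⟨σ * (pm n t)⁻¹, mem_alternatingGroup.2 hs'⟩, Or.inr (Subtype.ext ?_)⟩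
    show (a : Perm (Fin n)) = σ * (pm n t)⁻¹ * (P n w' : Perm (Fin n)) * (σ * (pm n t)⁻¹)⁻¹
    rw [← hσ, coe_P hn hw, coe_P hn hw']
    have h2 : (pm n t)⁻¹ * pm n w' * pm n t = pm n w := by
      rw [mul_assoc, ← h1, inv_mul_cancel_left]
    calc σ * pm n w * σ⁻¹ = σ * ((pm n t)⁻¹ * pm n w' * pm n t) * σ⁻¹ := by rw [h2]
      _ = σ * (pm n t)⁻¹ * pm n w' * (σ * (pm n t)⁻¹)⁻¹ := by group

end ct

section
variable {n : ℕ} [NeZero n] (hn : 8 ≤ n) {F : Type u} [Field F] {ψ : ↥(alternatingGroup (Fin n)) →* Gh F}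

theorem ev_inv_one {M : Type*} [AddCommGroup M] [Module F M] (ρ : Representation F (Gh F) M) (y : Gh F) :
    ev (ρ y⁻¹) 1 = ev (ρ y) 1 := by
  unfold ev
  have h3 : ∀ (y : Gh F) (v : M), ρ y v = v → ρ y⁻¹ v = v := by
    intro y v h
    nth_rewrite 1 [← h]
    rw [← Module.End.mul_apply, ← map_mul, inv_mul_cancel, map_one, Module.End.one_apply]
  have h2 : Module.End.eigenspace (ρ y⁻¹) 1 = Module.End.eigenspace (ρ y) 1 := by
    ext v
    rw [Module.End.mem_eigenspace_iff, Module.End.mem_eigenspace_iff, one_smul]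
    constructor
    · intro h
      have h4 := h3 _ v h
      rwa [inv_inv] at h4
    · exact h3 _ v
  rw [h2]

include hn

/-- the multiplicity of `1` only depends on the cycle type: `w' = w` or `w' = w⁻¹` -/
theorem ev_ct {w w' t : List (ℕ × ℕ)} (hw : vl 8 w = true) (hw' : vl 8 w' = true) (ht : En 8 t)
    (ho : t.length % 2 = 1) (hc : cd 8 (t ++ w) = cd 8 (w' ++ t)) (hi : cd 8 w = cd 8 w' ∨ cd 8 (w ++ w') = cd 8 [])
    {a : ↥(alternatingGroup (Fin n))} (ha : (a : Perm (Fin n)).cycleType = (pm 8 w).cycleType) {M : Type*}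
    [AddCommGroup M] [Module F M] (ρ : Representation F (Gh F) M) : ev (ρ (ψ a)) 1 = ev (ρ (ψ (P n w))) 1 := by
  have h1 : ev (ρ (ψ (P n w'))) 1 = ev (ρ (ψ (P n w))) 1 := by
    rcases hi with hi | hi
    · rw [(P_eq_iff hn hw hw').2 hi]
    · have h2 : P n w' = (P n w)⁻¹ := by
        rw [eq_comm, inv_eq_iff_mul_eq_one, ← P_append hn hw hw',
          (P_eq_iff hn (vl_append hw hw') (l' := []) rfl).2 hi, P_nil]
      rw [h2, map_inv, ev_inv_one]
  obtain ⟨g, hg | hg⟩ := conj_ct hn hw hw' ht ho hc ha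
  · rw [hg, map_mul ψ, map_mul ψ, map_inv ψ, Cfsg.Agent.H944.E6T.ev_conj]
  · rw [hg, map_mul ψ, map_mul ψ, map_inv ψ, Cfsg.Agent.H944.E6T.ev_conj, h1]

theorem ct3 {a : ↥(alternatingGroup (Fin n))} (ha : (a : Perm (Fin n)).cycleType = {3}) {M : Type*}
    [AddCommGroup M] [Module F M] (ρ : Representation F (Gh F) M) : ev (ρ (ψ a)) 1 = ev (ρ (ψ (P n l3))) 1 :=
  ev_ct hn (w := l3) (w' := l3) (t := [(6, 7)]) (by decide) (by decide) (by unfold En; decide) (by decide) (by decide)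
    (Or.inl rfl) (ha.trans (by decide +kernel)) ρ

theorem ct33 {a : ↥(alternatingGroup (Fin n))} (ha : (a : Perm (Fin n)).cycleType = {3, 3}) {M : Type*}
    [AddCommGroup M] [Module F M] (ρ : Representation F (Gh F) M) : ev (ρ (ψ a)) 1 = ev (ρ (ψ (P n l33))) 1 :=
  ev_ct hn (w := l33) (w' := l33) (t := [(3, 7)]) (by decide) (by decide) (by unfold En; decide) (by decide) (by decide)
    (Or.inl rfl) (ha.trans (by decide +kernel)) ρ

theorem ct5 {a : ↥(alternatingGroup (Fin n))} (ha : (a : Perm (Fin n)).cycleType = {5}) {M : Type*}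
    [AddCommGroup M] [Module F M] (ρ : Representation F (Gh F) M) : ev (ρ (ψ a)) 1 = ev (ρ (ψ (P n w5))) 1 :=
  ev_ct hn (w := w5) (w' := w5) (t := [(6, 7)]) (by decide) (by decide) (by unfold En; decide) (by decide) (by decide)
    (Or.inl rfl) (ha.trans (by decide +kernel)) ρ

theorem ct7 {a : ↥(alternatingGroup (Fin n))} (ha : (a : Perm (Fin n)).cycleType = {7}) {M : Type*}
    [AddCommGroup M] [Module F M] (ρ : Representation F (Gh F) M) : ev (ρ (ψ a)) 1 = ev (ρ (ψ (P n w7))) 1 :=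
  ev_ct hn (w := w7) (w' := w7i) (t := [(1, 6), (2, 5), (3, 4)]) (by decide) (by decide) (by unfold En; decide) (by decide)
    (by decide) (Or.inr (by decide)) (ha.trans (by decide +kernel)) ρ

theorem ct53 {a : ↥(alternatingGroup (Fin n))} (ha : (a : Perm (Fin n)).cycleType = {5, 3}) {M : Type*}
    [AddCommGroup M] [Module F M] (ρ : Representation F (Gh F) M) : ev (ρ (ψ a)) 1 = ev (ρ (ψ (P n w53))) 1 :=
  ev_ct hn (w := w53) (w' := [(6, 7), (5, 6), (3, 4), (2, 3), (1, 2), (0, 1)]) (t := [(1, 4), (2, 3), (6, 7)])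
    (by decide) (by decide) (by unfold En; decide) (by decide) (by decide) (Or.inr (by decide))
    (ha.trans (by decide +kernel)) ρ

end

section
variable {n : ℕ} {F : Type u} [Field F]

/-- all the elements of cycle type `T` have a `d`-dimensional space of fixed points on the 56-dimensional module -/
def DV (ψ : ↥(alternatingGroup (Fin n)) →* Gh F) (T : Multiset ℕ) (d : ℕ) : Prop :=
  ∀ a : ↥(alternatingGroup (Fin n)), (a : Perm (Fin n)).cycleType = T → ev (V F (ψ a)) 1 = d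

/-- the same on the adjoint module -/
def DL (ψ : ↥(alternatingGroup (Fin n)) →* Gh F) (T : Multiset ℕ) (d : ℕ) : Prop :=
  ∀ a : ↥(alternatingGroup (Fin n)), (a : Perm (Fin n)).cycleType = T → ev (L F (ψ a)) 1 = d

/-- **PAT2**: the patterns for `p = 2`, `n ≥ 8` -/
theorem pat2 [Finite F] (hn : 8 ≤ n) (h2 : (2 : F) = 0) {ψ : ↥(alternatingGroup (Fin n)) →* Gh F}
    (hψ : Function.Injective ψ) : (DV ψ {5} 16 ∧ DL ψ {5} 33) ∧
    (((DV ψ {3} 32 ∧ DL ψ {3} 67) ∧ (DV ψ {3, 3} 20 ∧ DL ψ {3, 3} 49) ∧ (DV ψ {7} 2 ∨ DV ψ {7} 8 ∨ DV ψ {7} 20) ∧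
      (DV ψ {5, 3} 0 ∨ DV ψ {5, 3} 8)) ∨
    ((DV ψ {3} 20 ∧ DL ψ {3} 49) ∧ (DV ψ {3, 3} 32 ∧ DL ψ {3, 3} 67) ∧ DV ψ {7} 20 ∧
      (DV ψ {5, 3} 4 ∨ DV ψ {5, 3} 12))) := by
  have : NeZero n := ⟨by omega⟩
  have h := pat2w hn h2 hψ
  have v3 : ∀ d, ev (V F (ψ (P n l3))) 1 = d → DV ψ {3} d := fun d hd a ha => (ct3 hn ha (V F)).trans hd
  have k3 : ∀ d, ev (L F (ψ (P n l3))) 1 = d → DL ψ {3} d := fun d hd a ha => (ct3 hn ha (L F)).trans hd
  have v33 : ∀ d, ev (V F (ψ (P n l33))) 1 = d → DV ψ {3, 3} d := fun d hd a ha => (ct33 hn ha (V F)).trans hd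
  have k33 : ∀ d, ev (L F (ψ (P n l33))) 1 = d → DL ψ {3, 3} d := fun d hd a ha => (ct33 hn ha (L F)).trans hd
  have v5 : ∀ d, ev (V F (ψ (P n w5))) 1 = d → DV ψ {5} d := fun d hd a ha => (ct5 hn ha (V F)).trans hd
  have k5 : ∀ d, ev (L F (ψ (P n w5))) 1 = d → DL ψ {5} d := fun d hd a ha => (ct5 hn ha (L F)).trans hd
  have v7 : ∀ d, ev (V F (ψ (P n w7))) 1 = d → DV ψ {7} d := fun d hd a ha => (ct7 hn ha (V F)).trans hd
  have v53 : ∀ d, ev (V F (ψ (P n w53))) 1 = d → DV ψ {5, 3} d := fun d hd a ha => (ct53 hn ha (V F)).trans hd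
  refine ⟨⟨v5 _ h.1.1, k5 _ h.1.2⟩, ?_⟩
  rcases h.2 with ⟨a, b, c, d⟩ | ⟨a, b, c, d⟩
  · exact Or.inl ⟨⟨v3 _ a.1, k3 _ a.2⟩, ⟨v33 _ b.1, k33 _ b.2⟩, c.imp (v7 _) (Or.imp (v7 _) (v7 _)),
      d.imp (v53 _) (v53 _)⟩
  · exact Or.inr ⟨⟨v3 _ a.1, k3 _ a.2⟩, ⟨v33 _ b.1, k33 _ b.2⟩, v7 _ c, d.imp (v53 _) (v53 _)⟩

end

end Cfsg.Agent.R2.T1.Pat2
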