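import Cfsg.Agent.R2.T1.Odd.Perm

/-!
# T1, PAT2 (helper26): `dim M^{Z₅} ≤ dim M^{Z₃}` for `A₅` in characteristic 2

In `F₂[A₅]`: `e₅ e₃ e₅ = e₅`, `e₅`, `e₃` the sums of the elements of the subgroups generated by `(01234)`, `(012)`; also for
`(01234)`, `(012)(354)`.
-/

set_option autoImplicit false

namespace Cfsg.Agent.R2.T1.Pat2

open Equiv Equiv.Perm Module
open Cfsg.Agent.R2.T1.Odd
open Cfsg.Agent.H952.F4 (ev es)

section gen
variable {F : Type*} [Field F] {W : Type*} [AddCommGroup W] [Module F W]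

/-- the abstract certificate -/
theorem fix_le [FiniteDimensional F W] {A B SA SB : End F W} {U : Submodule F W} (hU : ∀ u ∈ U, SB u ∈ U)
    (hA : ∀ w, A w = w → SA w = w) (hB : ∀ w, B (SB w) = SB w) (h : ∀ w, SA (SB (SA w)) = SA w) :
    finrank F ↥(Module.End.eigenspace A 1 ⊓ U) ≤ finrank F ↥(Module.End.eigenspace B 1 ⊓ U) := by
  have hmem : ∀ w : ↥(Module.End.eigenspace A 1 ⊓ U), SB w ∈ Module.End.eigenspace B 1 ⊓ U := by
    intro w
    refine ⟨?_, hU _ w.2.2⟩
    show SB w ∈ Module.End.eigenspace B 1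
    rw [Module.End.mem_eigenspace_iff, one_smul]
    exact hB _
  let f : ↥(Module.End.eigenspace A 1 ⊓ U) →ₗ[F] ↥(Module.End.eigenspace B 1 ⊓ U) :=
    (SB.comp (Module.End.eigenspace A 1 ⊓ U).subtype).codRestrict _ hmem
  refine LinearMap.finrank_le_finrank_of_injective (f := f) ?_
  rw [← LinearMap.ker_eq_bot, eq_bot_iff]
  intro w hw
  have h1 : SB (w : W) = 0 := congrArg Subtype.val (LinearMap.mem_ker.1 hw)
  have h2 : A (w : W) = w := by
    have h3 := Module.End.mem_eigenspace_iff.1 w.2.1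
    rwa [one_smul] at h3
  have h3 := h w
  rw [hA _ h2, h1, map_zero] at h3
  rw [Submodule.mem_bot]
  exact Subtype.ext h3.symm

end gen

/-- the words of the powers -/
def pw (k : ℕ) (a : List (ℕ × ℕ)) : List (List (ℕ × ℕ)) := (List.range k).map fun i => (List.replicate i a).flatten

/-- products of lists of words -/
def ml (A B : List (List (ℕ × ℕ))) : List (List (ℕ × ℕ)) := A.flatMap fun a => B.map fun b => a ++ b

/-- every code occurs an even number of times -/
def evn (m : ℕ) (L : List (List (ℕ × ℕ))) : Bool :=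
  L.all (vl m) && L.all fun a => Nat.beq ((L.countP fun b => cd m b == cd m a) % 2) 0

section perm
variable {n m : ℕ} [NeZero n] {F : Type*} [Field F] {W : Type*} [AddCommGroup W] [Module F W]

/-- the sum of the operators -/
noncomputable def Sg (ρ : Representation F ↥(alternatingGroup (Fin n)) W) (A : List (List (ℕ × ℕ))) : End F W :=
  (A.map fun a => ρ (P n a)).sum

theorem Sg_append (ρ : Representation F ↥(alternatingGroup (Fin n)) W) (A B : List (List (ℕ × ℕ))) :
    Sg ρ (A ++ B) = Sg ρ A + Sg ρ B := by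
  unfold Sg
  rw [List.map_append, List.sum_append]

theorem Sg_ml (hm : m ≤ n) (ρ : Representation F ↥(alternatingGroup (Fin n)) W) {A B : List (List (ℕ × ℕ))}
    (hA : A.all (vl m) = true) (hB : B.all (vl m) = true) : Sg ρ (ml A B) = Sg ρ A * Sg ρ B := by
  induction A with
  | nil =>
    show (0 : End F W) = 0 * _
    rw [zero_mul]
  | cons a A ih =>
    rw [List.all_cons, Bool.and_eq_true] at hA
    have h1 : ml (a :: A) B = (B.map fun b => a ++ b) ++ ml A B := rfl
    rw [h1, Sg_append, ih hA.2]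
    have h2 : Sg ρ (B.map fun b => a ++ b) = ρ (P n a) * Sg ρ B := by
      unfold Sg
      rw [List.map_map, ← List.sum_map_mul_left]
      congr 1
      refine List.map_congr_left fun b hb => ?_
      rw [Function.comp_apply, P_append hm hA.1 (List.all_eq_true.1 hB b hb), map_mul]
    have h3 : Sg ρ (a :: A) = ρ (P n a) + Sg ρ A := by
      unfold Sg
      rw [List.map_cons, List.sum_cons]
    rw [h2, h3, add_mul]

omit [NeZero n] in
theorem sum_zero_of_even {α M : Type*} [DecidableEq α] [AddCommMonoid M] (f : α → M) (hf : ∀ a, 2 • f a = 0)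
    (L : List α) (h : ∀ a ∈ L, L.count a % 2 = 0) : (L.map f).sum = 0 := by
  rw [Finset.sum_list_map_count]
  refine Finset.sum_eq_zero fun x hx => ?_
  obtain ⟨k, hk⟩ := Nat.dvd_of_mod_eq_zero (h x (List.mem_toFinset.1 hx))
  rw [hk, mul_comm, mul_smul, hf, smul_zero]

omit [NeZero n] in
theorem sum_zero_of_evenP {ι α M : Type*} [AddCommMonoid M] (f : α → M) (hf : ∀ a, 2 • f a = 0) (g : ι → α)
    (c : ι → ι → Bool) (L : List ι) (hc : ∀ a ∈ L, ∀ b ∈ L, (c b a = true ↔ g b = g a))
    (h : ∀ a ∈ L, (L.countP fun b => c b a) % 2 = 0) : (L.map fun a => f (g a)).sum = 0 := by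
  classical
  have h1 : (L.map fun a => f (g a)) = (L.map g).map f := by
    rw [List.map_map]
    rfl
  rw [h1]
  refine sum_zero_of_even f hf _ fun x hx => ?_
  obtain ⟨a, ha, rfl⟩ := List.mem_map.1 hx
  have h2 : List.count (g a) (L.map g) = L.countP fun b => c b a := by
    rw [List.count, List.countP_map]
    refine List.countP_congr fun b hb => ?_
    rw [hc a ha b hb, Function.comp_apply, beq_iff_eq]
  rw [h2]
  exact h a ha

/-- sums over words which cancel modulo 2 -/
theorem Sg_even (h2 : (2 : F) = 0) (hm : m ≤ n) (ρ : Representation F ↥(alternatingGroup (Fin n)) W)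
    {L : List (List (ℕ × ℕ))} (h : evn m L = true) : Sg ρ L = 0 := by
  unfold evn at h
  rw [Bool.and_eq_true] at h
  obtain ⟨hv, hc⟩ := h
  refine sum_zero_of_evenP (fun x => ρ x) (fun a => ?_) (fun a => P n a) (fun b a => cd m b == cd m a) L ?_ ?_
  · rw [← Nat.cast_smul_eq_nsmul F, Nat.cast_ofNat, h2, zero_smul]
  · intro a ha b hb
    rw [beq_iff_eq, P_eq_iff hm (List.all_eq_true.1 hv b hb) (List.all_eq_true.1 hv a ha)]
  · intro a ha
    exact Nat.eq_of_beq_eq_true (List.all_eq_true.1 hc a ha)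

theorem add_self2 (h2 : (2 : F) = 0) (x : End F W) : x + x = 0 := by
  rw [← two_smul F x, h2, zero_smul]

theorem eq_of_add2 (h2 : (2 : F) = 0) {x y : End F W} (h : x + y = 0) : x = y := by
  have h1 := add_self2 h2 y
  rw [← h1] at h
  exact add_right_cancel h

/-- the fixed points of `a` are fixed by the sum of its powers -/
theorem Sg_pw (h2 : (2 : F) = 0) (hm : m ≤ n) (ρ : Representation F ↥(alternatingGroup (Fin n)) W) {k : ℕ}
    (hk : k % 2 = 1) {a : List (ℕ × ℕ)} (ha : vl m a = true) {w : W} (hw : ρ (P n a) w = w) :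
    Sg ρ (pw k a) w = w := by
  have hpow : ∀ i : ℕ, vl m (List.replicate i a).flatten = true ∧ ρ (P n (List.replicate i a).flatten) w = w := by
    intro i
    induction i with
    | zero =>
      refine ⟨rfl, ?_⟩
      show ρ (P n []) w = w
      rw [P_nil, map_one]
      rfl
    | succ i ih =>
      rw [List.replicate_succ, List.flatten_cons]
      refine ⟨vl_append ha ih.1, ?_⟩
      rw [P_append hm ha ih.1, map_mul, Module.End.mul_apply, ih.2, hw]
  have h1 : ∀ k : ℕ, Sg ρ (pw k a) w = k • w := by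
    intro k
    induction k with
    | zero => simp [Sg, pw]
    | succ k ih =>
      have h3 : pw (k + 1) a = pw k a ++ [(List.replicate k a).flatten] := by
        unfold pw
        rw [List.range_succ, List.map_append]
        rfl
      rw [h3, Sg_append, LinearMap.add_apply, ih]
      have h4 : Sg ρ [(List.replicate k a).flatten] = ρ (P n (List.replicate k a).flatten) := by
        unfold Sg
        rw [List.map_cons, List.map_nil, List.sum_cons, List.sum_nil, add_zero]
      rw [h4, (hpow k).2, add_smul, one_smul]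
  rw [h1]
  obtain ⟨j, hj⟩ : ∃ j, k = 2 * j + 1 := ⟨k / 2, by omega⟩
  rw [hj, add_smul, one_smul, mul_comm, mul_smul]
  have h5 : (2 : ℕ) • w = 0 := by
    rw [← Nat.cast_smul_eq_nsmul F, Nat.cast_ofNat, h2, zero_smul]
  rw [h5, smul_zero, zero_add]

/-- the certificate -/
def cert (m k1 : ℕ) (a : List (ℕ × ℕ)) (k2 : ℕ) (b : List (ℕ × ℕ)) : Bool :=
  vl m a && vl m b && (pw k1 a).all (vl m) && (pw k2 b).all (vl m) && Nat.beq (k1 % 2) 1 &&
    evn m (ml (pw k1 a) (ml (pw k2 b) (pw k1 a)) ++ pw k1 a) && evn m (ml [b] (pw k2 b) ++ pw k2 b)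

/-- **`e_a e_b e_a = e_a` implies `dim M^a ≤ dim M^b`** -/
theorem le_of_cert [FiniteDimensional F W] (h2 : (2 : F) = 0) (hm : m ≤ n)
    (ρ : Representation F ↥(alternatingGroup (Fin n)) W) {k1 k2 : ℕ} {a b : List (ℕ × ℕ)}
    (h : cert m k1 a k2 b = true) (U : Submodule F W) (hU : ∀ u ∈ U, ρ (P n b) u ∈ U) :
    finrank F ↥(Module.End.eigenspace (ρ (P n a)) 1 ⊓ U) ≤ finrank F ↥(Module.End.eigenspace (ρ (P n b)) 1 ⊓ U) := by
  unfold cert at h
  simp only [Bool.and_eq_true] at h
  obtain ⟨⟨⟨⟨⟨⟨ha, hb⟩, hA⟩, hB⟩, hk⟩, h3⟩, h4⟩ := h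
  have hml : ∀ A B : List (List (ℕ × ℕ)), A.all (vl m) = true → B.all (vl m) = true → (ml A B).all (vl m) = true := by
    intro A B hA hB
    rw [List.all_eq_true] at *
    intro x hx
    obtain ⟨u, hu, hx⟩ := List.mem_flatMap.1 hx
    obtain ⟨v, hv, rfl⟩ := List.mem_map.1 hx
    exact vl_append (hA u hu) (hB v hv)
  have e1 : Sg ρ (pw k1 a) * (Sg ρ (pw k2 b) * Sg ρ (pw k1 a)) = Sg ρ (pw k1 a) := by
    have h5 := Sg_even h2 hm ρ h3
    rw [Sg_append, Sg_ml hm ρ hA (hml _ _ hB hA), Sg_ml hm ρ hB hA] at h5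
    exact eq_of_add2 h2 h5
  have e2 : ρ (P n b) * Sg ρ (pw k2 b) = Sg ρ (pw k2 b) := by
    have h5 := Sg_even h2 hm ρ h4
    rw [Sg_append, Sg_ml hm ρ (by simp [hb]) hB] at h5
    have h6 : Sg ρ [b] = ρ (P n b) := by
      unfold Sg
      rw [List.map_cons, List.map_nil, List.sum_cons, List.sum_nil, add_zero]
    rw [h6] at h5
    exact eq_of_add2 h2 h5
  refine fix_le (SA := Sg ρ (pw k1 a)) (SB := Sg ρ (pw k2 b)) ?_ ?_ ?_ ?_
  · -- `U` is stable
    have hpow : ∀ i : ℕ, vl m (List.replicate i b).flatten = true ∧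
        ∀ u ∈ U, ρ (P n (List.replicate i b).flatten) u ∈ U := by
      intro i
      induction i with
      | zero =>
        refine ⟨rfl, fun u hu => ?_⟩
        show ρ (P n []) u ∈ U
        rw [P_nil, map_one]
        exact hu
      | succ i ih =>
        rw [List.replicate_succ, List.flatten_cons]
        refine ⟨vl_append hb ih.1, fun u hu => ?_⟩
        rw [P_append hm hb ih.1, map_mul, Module.End.mul_apply]
        exact hU _ (ih.2 u hu)
    have hsum : ∀ L : List (List (ℕ × ℕ)), (∀ l ∈ L, ∀ u ∈ U, ρ (P n l) u ∈ U) → ∀ u ∈ U, Sg ρ L u ∈ U := by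
      intro L
      induction L with
      | nil =>
        intro _ u _
        show (0 : End F W) u ∈ U
        exact U.zero_mem
      | cons l L ih =>
        intro h5 u hu
        have h6 : Sg ρ (l :: L) = ρ (P n l) + Sg ρ L := by
          unfold Sg
          rw [List.map_cons, List.sum_cons]
        rw [h6, LinearMap.add_apply]
        exact U.add_mem (h5 l List.mem_cons_self u hu) (ih (fun l' hl' => h5 l' (List.mem_cons_of_mem _ hl')) u hu)
    refine hsum _ fun l hl => ?_
    obtain ⟨i, -, rfl⟩ := List.mem_map.1 hl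
    exact (hpow i).2
  · intro w hw
    exact Sg_pw h2 hm ρ (Nat.eq_of_beq_eq_true hk) ha hw
  · intro w
    rw [← Module.End.mul_apply, e2]
  · intro w
    rw [← Module.End.mul_apply, ← Module.End.mul_apply, mul_assoc, e1]

end perm

/-- `(0 1 2 3 4)` -/
def w5 : List (ℕ × ℕ) := [(0, 1), (1, 2), (2, 3), (3, 4)]
/-- `(0 1 2)` -/
def w3 : List (ℕ × ℕ) := [(0, 1), (1, 2)]
/-- `(0 1 2)(3 5 4)` -/
def w33 : List (ℕ × ℕ) := [(0, 1), (1, 2), (3, 5), (5, 4)]
/-- `(5 6 7)` -/
def y3 : List (ℕ × ℕ) := [(5, 6), (6, 7)]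

theorem cert3 : cert 5 5 w5 3 w3 = true := by decide +kernel
theorem cert33 : cert 6 5 w5 3 w33 = true := by decide +kernel

end Cfsg.Agent.R2.T1.Pat2
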