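import Cfsg.Agent.R2.T1.Inf.PatF

/-!
# T1, PAT2 (helper26): tests of the patterns of the elements of order 15

* `chkQ N Q` : the predicate `Q` for the multiplicities of all the elements of order dividing `N`; `exists_patQ`, `patQ`;
* `QP v0 v1 v2 l0 l1 l2 P` : elements `b λ(μ)`, `b` of order 3, `μ` of order 5;
* `QR` : rational elements of order 15.
-/

set_option autoImplicit false
set_option maxRecDepth 100000

namespace Cfsg.Agent.R2.T1.Pat2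

open Cfsg Cfsg.Lie Module
open Cfsg.Agent.ChevalleyStructure Cfsg.Agent.ChevalleyStructure.Elts Cfsg.Agent.ChevalleyStructure.RootVec
  Cfsg.Agent.ChevalleyStructure.RootVecTab Cfsg.Agent.ChevalleyStructure.CoxeterGeomTypes
open Cfsg.Agent.H943.E7V.Block (D1 rho)
open Cfsg.Agent.H952.F4 (ev es)
open Cfsg.Agent.H944.Tab (allAlc allAlc_spec dotN)
open Cfsg.Agent.H944.E7Two (th7)

universe u

/-- the test of a predicate -/
def chkQ (N : ℕ) (Q : (ℕ → ℕ) → (ℕ → ℕ) → Bool) : Bool :=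
  allAlc th7 N fun y => (List.range N).all fun t => !(Nat.beq ((2 * t + dt [2, 3, 4, 6, 5, 4, 3] y) % N) 0) ||
    Q (cV N y t) (cL N y)

section
variable {K : Type u} [Field K]

/-- the multiplicities satisfy the predicate -/
theorem exists_patQ {N : ℕ} {Q : (ℕ → ℕ) → (ℕ → ℕ) → Bool} (hchk : chkQ N Q = true) (hN : 0 < N) {ζ : Kˣ}
    (hζ : IsPrimitiveRoot ζ N) {x : Gh K}
    (h : ∃ (g : Gh K) (c : Fin chevE7.rank → Kˣ), Phi K c = g * x * g⁻¹ ∧ c ^ N = 1) :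
    ∃ f g : ℕ → ℕ, Q f g = true ∧ ∀ k < N, ev (V K x) ((ζ : K) ^ k) = f k ∧ ev (L K x) ((ζ : K) ^ k) = g k := by
  obtain ⟨g, c, y, h1, h2, h3, h4⟩ := Five.exists_alc hN hζ h
  have hζ' : IsPrimitiveRoot (ζ : K) N := IsPrimitiveRoot.coe_units_iff.2 hζ
  have : NeZero N := ⟨hN.ne'⟩
  obtain ⟨t, htN, ht⟩ : ∃ t < N, ζ ^ t = wt botv c := by
    have h5 : ((wt botv c : Kˣ) : K) ^ N = 1 := by
      rw [← Units.val_pow_eq_pow_val, wt_pow_one h2, Units.val_one]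
    obtain ⟨t, htN, ht⟩ := hζ'.eq_pow_of_pow_eq_one h5
    exact ⟨t, htN, Units.ext (by rw [Units.val_pow_eq_pow_val, ht])⟩
  set Y := List.ofFn y with hY
  have hlen : Y.length = 7 := by rw [hY, List.length_ofFn]
  have hv : ∀ j < 7, rtv (chevE7.simple j) c = ζ ^ Y.getD j 0 := by
    intro j hj
    have h5 := h3 ⟨j, hj⟩
    have h6 : Y.getD j 0 = y ⟨j, hj⟩ := by
      rw [hY, List.getD_eq_getElem _ _ (by rw [List.length_ofFn]; exact hj), List.getElem_ofFn]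
    rw [h6]
    exact h5
  have hc := allAlc_spec th7 N _ (by decide) hchk Y (by rw [hlen]; rfl) h4
  rw [List.all_eq_true] at hc
  have hc' := hc t (List.mem_range.2 htN)
  rw [core_rel hlen hv hζ ht.symm] at hc'
  simp only [Nat.beq_refl, Bool.not_true, Bool.false_or] at hc'
  refine ⟨_, _, hc', fun k hk => ⟨?_, ?_⟩⟩
  · rw [ev_V_of_conj h1, ev_V_core hlen hv hζ ht.symm hk]
  · rw [ev_L_of_conj h1, ev_L_core hlen hv hζ hk]

end

/-- **over finite fields** -/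
theorem patQ {N : ℕ} {Q : (ℕ → ℕ) → (ℕ → ℕ) → Bool} (hchk : chkQ N Q = true) (hN0 : N ≠ 0) (p : ℕ) [Fact p.Prime]
    {F : Type u} [Field F] [Finite F] [CharP F p] (hN : N.Coprime p) {x : Gh F} (hx : x ^ N = 1) :
    ∃ ζ : AlgebraicClosure F, IsPrimitiveRoot ζ N ∧ ∃ f g : ℕ → ℕ, Q f g = true ∧ ∀ k < N,
      ev (V (AlgebraicClosure F) (emb (algebraMap F (AlgebraicClosure F)) x)) (ζ ^ k) = f k ∧
      ev (L (AlgebraicClosure F) (emb (algebraMap F (AlgebraicClosure F)) x)) (ζ ^ k) = g k := by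
  have : NeZero N := ⟨hN0⟩
  have hch : CharP (AlgebraicClosure F) p :=
    charP_of_injective_algebraMap (algebraMap F (AlgebraicClosure F)).injective p
  have hNk : ((N : ℕ) : AlgebraicClosure F) ≠ 0 := by
    intro h0
    have h1 : p ∣ N := (CharP.cast_eq_zero_iff (AlgebraicClosure F) p N).1 h0
    have h2 : p ∣ 1 := by
      rw [← hN]
      exact Nat.dvd_gcd h1 dvd_rfl
    exact (Fact.out : p.Prime).one_lt.ne' (Nat.dvd_one.1 h2)
  have : NeZero ((N : ℕ) : AlgebraicClosure F) := ⟨hNk⟩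
  obtain ⟨ζ, hζ⟩ : ∃ ζ : AlgebraicClosure F, IsPrimitiveRoot ζ N :=
    HasEnoughRootsOfUnity.exists_primitiveRoot (AlgebraicClosure F) N
  have hζ0 : ζ ≠ 0 := hζ.ne_zero hN0
  have hζu : IsPrimitiveRoot (Units.mk0 ζ hζ0) N := IsPrimitiveRoot.coe_units_iff.1 hζ
  obtain ⟨f, g, hP, h1⟩ := exists_patQ hchk (Nat.pos_of_ne_zero hN0) hζu (frame p hN0 hN hx)
  exact ⟨ζ, hζ, f, g, hP, h1⟩

/-- the multiplicities of the elements `b λ(μ)`, `μ` of order 5, and of their products -/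
def QP (v0 v1 v2 l0 l1 l2 : ℕ) (P : ℕ → ℕ → ℕ → ℕ → ℕ → ℕ → Bool) (f g : ℕ → ℕ) : Bool :=
  !(Nat.beq (f 0 + (f 5 + f 10)) v0) || (!(Nat.beq (g 0 + (g 5 + g 10)) l0) ||
  (!(Nat.beq (f 1 + (f 6 + f 11)) v1) || (!(Nat.beq (f 2 + (f 7 + f 12)) v2) ||
  (!(Nat.beq (g 1 + (g 6 + g 11)) l1) || (!(Nat.beq (g 2 + (g 7 + g 12)) l2) ||
  P (f 0 + (f 3 + (f 6 + (f 9 + f 12)))) (g 0 + (g 3 + (g 6 + (g 9 + g 12))))
    (f 0 + (f 4 + (f 7 + (f 8 + f 11)))) (g 0 + (g 4 + (g 7 + (g 8 + g 11))))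
    (f 0 + (f 1 + (f 2 + (f 13 + f 14)))) (g 0 + (g 1 + (g 2 + (g 13 + g 14)))))))))

/-- type `(20, 49)` -/
def P49 (b b' c c' d d' : ℕ) : Bool :=
  !(Nat.beq b 20) || (!(Nat.beq b' 49) || (!(Nat.beq c d) || (!(Nat.beq c' d') || (Nat.beq c 14 || Nat.beq c' 67))))

/-- type `(32, 67)` -/
def P67 (b b' c c' d d' : ℕ) : Bool :=
  !(Nat.beq b 32) || (!(Nat.beq b' 67) || (!(Nat.beq c d) || (!(Nat.beq c' d') || (Nat.beq c 20 && Nat.beq c' 49))))

theorem chk49 : chkQ 15 (QP 20 16 2 49 32 10 P49) = true := by decide +kernel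

end Cfsg.Agent.R2.T1.Pat2
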