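import Cfsg.Agent.R2.T1.Pat2.ChkA

set_option autoImplicit false
set_option maxRecDepth 100000

namespace Cfsg.Agent.R2.T1.Pat2

theorem chk67 : chkQ 15 (QP 32 12 0 67 32 1 P67) = true := by decide +kernel

end Cfsg.Agent.R2.T1.Pat2
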