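import Cfsg.Agent.R2.T1.Inf.PatF

/-!
# T1, PAT2 (helper26): multiplicities of operators which are functions of a diagonalizable operator

* `ev_grp` : `ev T θ = Σ_{k < N, τ k = θ} ev Z (η ^ k)` if `T` acts as `τ k` on the `η ^ k`-eigenspace of `Z`;
* `ev_grp_V`, `ev_grp_L`.
-/

set_option autoImplicit false
set_option maxRecDepth 100000

namespace Cfsg.Agent.R2.T1.Pat2

open Cfsg Cfsg.Lie Module
open Cfsg.Agent.H943.E7V.Block (D1 rho)
open Cfsg.Agent.H952.F4 (ev es)
open Cfsg.Agent.H944.E6T (ev_conj trace_conj)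

universe u

section lin

variable {K : Type u} {ι : Type*} [Field K] [Fintype ι] [DecidableEq ι]

open Classical in
/-- **grouping of eigenvalues** -/
theorem ev_grp {N : ℕ} (hN : 0 < N) {η : K} (hη : IsPrimitiveRoot η N) {d : ι → K} (hd : ∀ i, d i ^ N = 1)
    {Z T : Module.End K (ι → K)} (hZ : Z = Matrix.toLin' (Matrix.diagonal d)) (τ : ℕ → K)
    (h : ∀ k < N, ∀ v, Z v = η ^ k • v → T v = τ k • v) (θ : K) :
    ev T θ = ∑ k ∈ Finset.range N, if τ k = θ then ev Z (η ^ k) else 0 := by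
  have : NeZero N := ⟨hN.ne'⟩
  have hex : ∀ i, ∃ k < N, η ^ k = d i := fun i => hη.eq_pow_of_pow_eq_one (hd i)
  choose κ hκ1 hκ2 using hex
  have hT : T = Matrix.toLin' (Matrix.diagonal fun i => τ (κ i)) := by
    refine LinearMap.pi_ext' fun i => LinearMap.ext_ring ?_
    have h1 : Z (Pi.single i 1) = η ^ κ i • (Pi.single i (1 : K) : ι → K) := by
      rw [hZ, Matrix.toLin'_apply]
      funext j
      rw [Matrix.mulVec_diagonal, Pi.smul_apply, smul_eq_mul]
      by_cases hj : j = i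
      · rw [hj, hκ2]
      · rw [Pi.single_eq_of_ne hj, mul_zero, mul_zero]
    have h2 := h (κ i) (hκ1 i) _ h1
    rw [LinearMap.comp_apply, LinearMap.comp_apply, LinearMap.single_apply, h2, Matrix.toLin'_apply]
    funext j
    rw [Matrix.mulVec_diagonal, Pi.smul_apply, smul_eq_mul]
    by_cases hj : j = i
    · rw [hj]
    · rw [Pi.single_eq_of_ne hj, mul_zero, mul_zero]
  rw [Cfsg.Agent.H944.E6T.ev_diag _ θ hT,
    Finset.card_eq_sum_card_fiberwise (f := κ) (t := Finset.range N) (fun i _ => by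
      simpa using hκ1 i)]
  refine Finset.sum_congr rfl fun k hk => ?_
  rw [Finset.filter_filter]
  split_ifs with h1
  · rw [Cfsg.Agent.H944.E6T.ev_diag _ (η ^ k) hZ]
    congr 1
    ext i
    simp only [Finset.mem_filter, Finset.mem_univ, true_and]
    constructor
    · rintro ⟨-, rfl⟩
      exact (hκ2 i).symm
    · intro h2
      have h3 : κ i = k := hη.pow_inj (hκ1 i) (Finset.mem_range.1 hk) ((hκ2 i).trans h2)
      exact ⟨by rw [h3, h1], h3⟩
  · rw [Finset.card_eq_zero, Finset.filter_eq_empty_iff]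
    rintro i - ⟨h2, rfl⟩
    exact h1 h2

end lin

section
variable {K : Type u} [Field K]

open Classical in
theorem ev_grp_V {N : ℕ} (hN : 0 < N) {η : K} (hη : IsPrimitiveRoot η N) {z t : Gh K}
    (hz : ∃ (g : Gh K) (c : Fin chevE7.rank → Kˣ), Phi K c = g * z * g⁻¹ ∧ c ^ N = 1) (τ : ℕ → K)
    (h : ∀ k < N, ∀ v, V K z v = η ^ k • v → V K t v = τ k • v) (θ : K) :
    ev (V K t) θ = ∑ k ∈ Finset.range N, if τ k = θ then ev (V K z) (η ^ k) else 0 := by
  obtain ⟨g, c, h1, h2⟩ := hz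
  have h3 : ∀ k < N, ∀ v, V K (Phi K c) v = η ^ k • v → V K (g * t * g⁻¹) v = τ k • v := by
    intro k hk v hv
    have h4 : V K z (V K g⁻¹ v) = η ^ k • V K g⁻¹ v := by
      have h5 : z * g⁻¹ = g⁻¹ * Phi K c := by rw [h1]; group
      rw [← Module.End.mul_apply, ← map_mul, h5, map_mul, Module.End.mul_apply, hv, map_smul]
    have h5 := h k hk _ h4
    rw [map_mul, map_mul, Module.End.mul_apply, Module.End.mul_apply, h5, map_smul, ← Module.End.mul_apply,
      ← map_mul, mul_inv_cancel, map_one, Module.End.one_apply]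
  have h6 := ev_grp hN hη (d := dV c) (fun s => by
    show ((wt s c : Kˣ) : K) ^ N = 1
    rw [← Units.val_pow_eq_pow_val, wt_pow_one h2, Units.val_one]) (V_Phi c) τ h3 θ
  rw [ev_conj] at h6
  rw [h6]
  refine Finset.sum_congr rfl fun k _ => ?_
  rw [ev_V_of_conj h1]

theorem rtv_pow_one {N : ℕ} {c : Fin chevE7.rank → Kˣ} (h : c ^ N = 1) (r : ℕ) : rtv r c ^ N = 1 := by
  unfold rtv
  rw [← Finset.prod_pow]
  refine Finset.prod_eq_one fun i _ => ?_
  rw [← zpow_natCast, ← zpow_mul, mul_comm, zpow_mul, zpow_natCast]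
  have h4 : c i ^ N = 1 := congrFun h i
  rw [h4, one_zpow]

open Classical in
theorem ev_grp_L {N : ℕ} (hN : 0 < N) {η : K} (hη : IsPrimitiveRoot η N) {z t : Gh K}
    (hz : ∃ (g : Gh K) (c : Fin chevE7.rank → Kˣ), Phi K c = g * z * g⁻¹ ∧ c ^ N = 1) (τ : ℕ → K)
    (h : ∀ k < N, ∀ v, L K z v = η ^ k • v → L K t v = τ k • v) (θ : K) :
    ev (L K t) θ = ∑ k ∈ Finset.range N, if τ k = θ then ev (L K z) (η ^ k) else 0 := by
  obtain ⟨g, c, h1, h2⟩ := hz
  have h3 : ∀ k < N, ∀ v, L K (Phi K c) v = η ^ k • v → L K (g * t * g⁻¹) v = τ k • v := by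
    intro k hk v hv
    have h4 : L K z (L K g⁻¹ v) = η ^ k • L K g⁻¹ v := by
      have h5 : z * g⁻¹ = g⁻¹ * Phi K c := by rw [h1]; group
      rw [← Module.End.mul_apply, ← map_mul, h5, map_mul, Module.End.mul_apply, hv, map_smul]
    have h5 := h k hk _ h4
    rw [map_mul, map_mul, Module.End.mul_apply, Module.End.mul_apply, h5, map_smul, ← Module.End.mul_apply,
      ← map_mul, mul_inv_cancel, map_one, Module.End.one_apply]
  have h6 := ev_grp hN hη (d := dL c) (fun s => by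
    rcases s with i | s
    · exact one_pow N
    · show ((rtv s c : Kˣ) : K) ^ N = 1
      rw [← Units.val_pow_eq_pow_val, rtv_pow_one h2, Units.val_one]) (L_Phi c) τ h3 θ
  rw [ev_conj] at h6
  rw [h6]
  refine Finset.sum_congr rfl fun k _ => ?_
  rw [ev_L_of_conj h1]

end

end Cfsg.Agent.R2.T1.Pat2
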