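import Cfsg.Agent.R2.T1.Pat2.Ct
import Cfsg.Agent.R2.T1.T3.Main
import Cfsg.Agent.R2.T1.T1p.Main
import Cfsg.Agent.R2.T1.T1x.Main

/-!
# T1, PAT2 (helper26): `n = 8`, `p = 2`

* `pat8` : the patterns; `no8` : **the contradiction**.
-/

set_option autoImplicit false
set_option maxRecDepth 100000

namespace Cfsg.Agent.R2.T1.Pat2

open Equiv Equiv.Perm
open Cfsg Cfsg.Lie Module
open Cfsg.Agent.H943.E7V.Block (D1 rho)
open Cfsg.Agent.H952.F4 (ev es MaxAlt GenT)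
open Cfsg.Agent.R2.T1

universe u

theorem gen8b : GenT 8 {3, 3} {7} {7} :=
  Cfsg.Agent.H952.F4.Gen.genT_of (n := 6) (c[2, 6, 5] * c[3, 7, 4]) (c[0, 1, 6, 5, 3, 4, 2]) (by decide +kernel)
    (by decide +kernel)
    ![[], [], [1, 2, 1, 2], [2, 1, 3, 0, 3, 0, 2, 1], [1, 2, 1, 3, 0, 3, 0, 2], [0, 2, 1, 2, 0], [2, 1, 2, 1],
      [0, 2, 1, 3, 0, 3, 0, 2, 0]]
    (by decide +kernel) (by decide +kernel) (by decide +kernel) (by decide +kernel)

variable {F : Type u} [Field F] [Finite F] (h2 : (2 : F) = 0) {H : Subgroup ↥(chevE7.group F)}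
  {φ : ↥(alternatingGroup (Fin 8)) →* ↥(chevE7.group F)} (hM : MaxAlt H 8 φ)
  {ψ : ↥(alternatingGroup (Fin 8)) →* Gh F} (hψ : Lift φ ψ)

include hM hψ

omit [Finite F] in
theorem lift_inj : Function.Injective ψ := by
  intro a b hab
  apply hM.inj
  rw [← hψ a, ← hψ b, hab]

theorem not20 {d : ℕ} (h33 : DV ψ {3, 3} d) (hd : 20 ≤ d) (h7 : DV ψ {7} 20) : False := by
  obtain ⟨a, b, hgen, ha, hb, hab⟩ := gen8b
  have hs := Cfsg.Agent.H952.F4.Scott.scott_form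
    (MonoidHom.comp (V F) ψ : Representation F ↥(alternatingGroup (Fin 8)) (D1 → F)) hgen (sf F)
    (fun v hv => sf_nondeg' hv) (fun g v w => sf_V (ψ g) v w)
  have e1 : ev ((MonoidHom.comp (V F) ψ : Representation F ↥(alternatingGroup (Fin 8)) (D1 → F)) a) 1 = d := h33 _ ha
  have e2 : ev ((MonoidHom.comp (V F) ψ : Representation F ↥(alternatingGroup (Fin 8)) (D1 → F)) b) 1 = 20 := h7 _ hb
  have e3 : ev ((MonoidHom.comp (V F) ψ : Representation F ↥(alternatingGroup (Fin 8)) (D1 → F)) (a * b)) 1 = 20 :=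
    h7 _ hab
  have hd56 : finrank F (D1 → F) = 56 := finrank_V
  rw [e1, e2, e3, hd56, no_fixed hM (by norm_num) (by norm_num) hψ, finrank_bot] at hs
  omega

include h2

/-- **the patterns for `n = 8`, `p = 2`** -/
theorem pat8 : (DV ψ {3} 32 ∧ DV ψ {3, 3} 20 ∧ DV ψ {5} 16) ∧ (DV ψ {7} 2 ∨ DV ψ {7} 8) ∧
    (DV ψ {5, 3} 0 ∨ DV ψ {5, 3} 8) := by
  rcases pat2 le_rfl h2 (lift_inj hM hψ) with ⟨h5, ⟨h3, h33, h7, h53⟩ | ⟨h3, h33, h7, h53⟩⟩
  · refine ⟨⟨h3.1, h33.1, h5.1⟩, ?_, h53⟩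
    rcases h7 with h7 | h7 | h7
    · exact Or.inl h7
    · exact Or.inr h7
    · exact (not20 hM hψ h33.1 le_rfl h7).elim
  · exact (not20 hM hψ h33.1 (by norm_num) h7).elim

/-- **`n = 8`, `p = 2`** -/
theorem no8 : False := by
  obtain ⟨⟨h3, h33, h5⟩, h7, h53⟩ := pat8 h2 hM hψ
  rcases h53 with h53 | h53
  · exact T1p.false_of h2 hM hψ h3 h33 h5 h53
  · rcases h7 with h7 | h7
    · exact T1x.false_of h2 ψ h3 h33 h7 h53
    · exact T3.false h2 hM hψ h3 h33 h5 h7 h53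

end Cfsg.Agent.R2.T1.Pat2
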