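import Cfsg.Agent.R2.T1.Odd.Typ
import Cfsg.Agent.R2.T1.Pat2.El2
import Cfsg.Agent.R2.T1.Pat2.A5

/-!
# T1, PAT2 (helper26): the types of the elements of order 3, 5, 7, 15, `p = 2`

`pat2w` : for `n ≥ 8` and injective `ψ : A_n → Gh F`.
-/

set_option autoImplicit false
set_option maxRecDepth 100000

namespace Cfsg.Agent.R2.T1.Pat2

open Cfsg Cfsg.Lie Module
open Cfsg.Agent.H943.E7V.Block (D1 rho)
open Cfsg.Agent.H952.F4 (ev es)
open Cfsg.Agent.R2.T1.Art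
open Cfsg.Agent.R2.T1.Odd

universe u

/-- `(0 1 2 3 4 5 6)` -/
def w7 : List (ℕ × ℕ) := [(0, 1), (1, 2), (2, 3), (3, 4), (4, 5), (5, 6)]
/-- its inverse -/
def w7i : List (ℕ × ℕ) := [(5, 6), (4, 5), (3, 4), (2, 3), (1, 2), (0, 1)]
/-- `(0 1 2 3 4)(5 6 7)` -/
def w53 : List (ℕ × ℕ) := [(0, 1), (1, 2), (2, 3), (3, 4), (5, 6), (6, 7)]
/-- `(3 4 5)` -/
def wb : List (ℕ × ℕ) := [(3, 4), (4, 5)]
/-- its inverse -/
def wbi : List (ℕ × ℕ) := [(4, 5), (3, 4)]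

/-! ### tables: `⟨(0 1 2), (5 6 7)⟩` and `7 : 3` -/

def g9 : List (List (ℕ × ℕ)) := [l3, y3]
def e9 : List (List ℕ) := [[], [0], [1], [0, 0], [1, 0], [1, 1], [1, 0, 0], [1, 1, 0], [1, 1, 0, 0]]
def r9 : List (List (ℕ × ℕ)) := [[], l3, l33]
def d9 : List (ℕ × List (ℕ × ℕ)) :=
  [(0, []), (1, []), (1, [(0, 5), (5, 3), (1, 6), (2, 7)]), (1, [(1, 2), (6, 7)]), (2, [(3, 4), (4, 7)]),
   (1, [(0, 5), (5, 3), (1, 7), (2, 6)]), (2, [(1, 2), (4, 7)]), (2, [(4, 5), (5, 7)]),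
   (2, [(1, 2), (3, 4), (4, 5), (5, 7)])]

theorem chkG_9 : chkG 8 g9 e9 = true := by decide +kernel
theorem chkC_9 : chkC 8 g9 e9 [] r9 d9 = true := by decide +kernel
theorem cnt_9 : (List.range 3).map (fun k => (d9.map Prod.fst).count k) = [1, 4, 4] := by decide +kernel

def g21 : List (List (ℕ × ℕ)) := [w7, [(1, 2), (2, 4), (3, 6), (6, 5)]]
def e21 : List (List ℕ) :=
  [[], [0], [1], [0, 0], [1, 0], [0, 1], [1, 1], [0, 0, 0], [1, 0, 0], [0, 1, 0], [1, 1, 0], [1, 0, 1], [0, 1, 1],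
   [0, 0, 0, 0], [1, 0, 0, 0], [0, 1, 0, 0], [1, 0, 1, 0], [0, 1, 1, 0], [0, 1, 0, 1], [0, 0, 0, 0, 0],
   [1, 0, 1, 0, 1]]
def r21 : List (List (ℕ × ℕ)) := [[], w7, w7i, l33]
def d21 : List (ℕ × List (ℕ × ℕ)) :=
  [(0, []), (1, []), (3, [(0, 3), (1, 6), (6, 4), (2, 5)]), (1, [(1, 2), (2, 4), (3, 6), (6, 5)]),
   (3, [(1, 2), (2, 6), (3, 7), (7, 5)]), (3, [(2, 3), (3, 7), (7, 6), (6, 4)]), (3, [(0, 1), (1, 4), (4, 3), (3, 7)]),
   (2, [(1, 4), (4, 2), (3, 5), (5, 6)]), (3, [(0, 1), (1, 6)]), (3, [(1, 3), (3, 4)]),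
   (3, [(1, 4), (4, 2), (2, 6), (6, 3)]), (3, [(1, 2), (2, 3), (3, 4), (5, 6)]), (3, [(2, 5), (5, 3)]),
   (1, [(1, 4), (4, 2), (3, 5), (5, 6)]), (3, [(1, 6), (6, 5), (5, 3), (2, 4)]), (3, [(1, 5), (5, 4), (4, 3), (3, 2)]),
   (3, [(1, 6), (6, 4), (3, 7), (7, 5)]), (3, [(0, 6), (6, 4)]), (3, [(1, 3), (3, 7), (7, 6), (6, 2)]),
   (2, [(1, 2), (2, 4), (3, 6), (6, 5)]), (2, [])]

theorem chkG_21 : chkG 8 g21 e21 = true := by decide +kernel
theorem chkC_21 : chkC 8 g21 e21 [] r21 d21 = true := by decide +kernel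
theorem cnt_21 : (List.range 4).map (fun k => (d21.map Prod.fst).count k) = [1, 3, 3, 14] := by decide +kernel

section types
variable {n : ℕ} [NeZero n] (hn : 8 ≤ n) {F : Type u} [Field F] {ψ : ↥(alternatingGroup (Fin n)) →* Gh F}

include hn in
/-- conjugate words -/
theorem ev_cj {x c r : List (ℕ × ℕ)} (hx : vl 8 x = true) (hc : vl 8 c = true) (hr : vl 8 r = true)
    (h : cd 8 (x ++ c) = cd 8 (c ++ r)) : ev (V F (ψ (P n x))) 1 = ev (V F (ψ (P n r))) 1 ∧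
      ev (L F (ψ (P n x))) 1 = ev (L F (ψ (P n r))) 1 :=
  ⟨ev_P_conj hn (MonoidHom.comp (V F) ψ) hx hc hr h 1, ev_P_conj hn (MonoidHom.comp (L F) ψ) hx hc hr h 1⟩

include hn in
/-- elements conjugate to their squares -/
theorem rat_cj {x c : List (ℕ × ℕ)} (hx : vl 8 x = true) (hc : vl 8 c = true)
    (h : cd 8 (pwl x 2 ++ c) = cd 8 (c ++ x)) : ψ (P n c) * ψ (P n x) * (ψ (P n c))⁻¹ = ψ (P n x) ^ 2 := by
  rw [← map_inv, ← map_mul, ← map_mul, ← P_conj hn (vl_pwl hx 2) hc hx h, P_pwl hn hx, map_pow]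

include hn in
theorem psi_pow_one {x : List (ℕ × ℕ)} (hx : vl 8 x = true) {k : ℕ} (h : cd 8 (pwl x k) = cd 8 []) :
    ψ (P n x) ^ k = 1 := by
  rw [← map_pow, P_pow_one hn hx h, map_one]

include hn in
theorem psi_ne_one (hψ : Function.Injective ψ) {x : List (ℕ × ℕ)} (hx : vl 8 x = true) (h : cd 8 x ≠ cd 8 []) :
    ψ (P n x) ≠ 1 := by
  intro h1
  rw [← map_one ψ] at h1
  exact P_ne hn hx rfl h (by rw [hψ h1, P_nil])

variable [Finite F] (h2 : (2 : F) = 0) (hψ : Function.Injective ψ)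
include hn h2 hψ

theorem d5 : ev (V F (ψ (P n w5))) 1 = 16 ∧ ev (L F (ψ (P n w5))) 1 = 33 :=
  five_ratL (by
    have := natCast_ne_zero_of_odd (F := F) h2 (N := 5) rfl
    exact_mod_cast this) (psi_pow_one hn (by decide) (by decide)) (psi_ne_one hn hψ (by decide) (by decide))
    (rat_cj hn (c := [(1, 2), (2, 4), (4, 3), (6, 7)]) (by decide) (by decide) (by decide))

theorem d7 : ev (V F (ψ (P n w7))) 1 = 2 ∨ ev (V F (ψ (P n w7))) 1 = 8 ∨ ev (V F (ψ (P n w7))) 1 = 20 :=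
  seven_rat (by
    have := natCast_ne_zero_of_odd (F := F) h2 (N := 7) rfl
    exact_mod_cast this) (psi_pow_one hn (by decide) (by decide)) (psi_ne_one hn hψ (by decide) (by decide))
    (rat_cj hn (c := [(1, 2), (2, 4), (3, 6), (6, 5)]) (by decide) (by decide) (by decide))

theorem d3_ge : 16 ≤ ev (V F (ψ (P n l3))) 1 := by
  have h := le_of_cert h2 (show 5 ≤ n by omega) (MonoidHom.comp (V F) ψ) cert3 ⊤ (fun _ _ => Submodule.mem_top)
  rw [inf_top_eq, inf_top_eq] at h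
  rw [← (d5 hn h2 hψ).1]
  exact h

theorem d33_ge : 16 ≤ ev (V F (ψ (P n l33))) 1 := by
  have h := le_of_cert h2 (show 6 ≤ n by omega) (MonoidHom.comp (V F) ψ) cert33 ⊤ (fun _ _ => Submodule.mem_top)
  rw [inf_top_eq, inf_top_eq] at h
  rw [← (d5 hn h2 hψ).1,
    ← (ev_cj (ψ := ψ) hn (x := w33) (c := [(3, 6), (6, 4)]) (r := l33) (by decide) (by decide) (by decide) (by decide)).1]
  exact h

theorem pat3 : (ev (V F (ψ (P n l3))) 1 = 32 ∧ ev (L F (ψ (P n l3))) 1 = 67) ∨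
    (ev (V F (ψ (P n l3))) 1 = 20 ∧ ev (L F (ψ (P n l3))) 1 = 49) ∨
    (ev (V F (ψ (P n l3))) 1 = 20 ∧ ev (L F (ψ (P n l3))) 1 = 43) :=
  three_pat h2 (psi_pow_one hn (by decide) (by decide)) (psi_ne_one hn hψ (by decide) (by decide)) (d3_ge hn h2 hψ)

theorem pat33 : (ev (V F (ψ (P n l33))) 1 = 32 ∧ ev (L F (ψ (P n l33))) 1 = 67) ∨
    (ev (V F (ψ (P n l33))) 1 = 20 ∧ ev (L F (ψ (P n l33))) 1 = 49) ∨
    (ev (V F (ψ (P n l33))) 1 = 20 ∧ ev (L F (ψ (P n l33))) 1 = 43) :=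
  three_pat h2 (psi_pow_one hn (by decide) (by decide)) (psi_ne_one hn hψ (by decide) (by decide)) (d33_ge hn h2 hψ)

/-- the elements of order 3 -/
theorem typ3 :
    ((ev (V F (ψ (P n l3))) 1 = 32 ∧ ev (L F (ψ (P n l3))) 1 = 67) ∧
      (ev (V F (ψ (P n l33))) 1 = 20 ∧ ev (L F (ψ (P n l33))) 1 = 49)) ∨
    ((ev (V F (ψ (P n l3))) 1 = 20 ∧ ev (L F (ψ (P n l3))) 1 = 49) ∧
      (ev (V F (ψ (P n l33))) 1 = 32 ∧ ev (L F (ψ (P n l33))) 1 = 67)) ∨
    ((ev (V F (ψ (P n l3))) 1 = 20 ∧ ev (L F (ψ (P n l3))) 1 = 43) ∧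
      (ev (V F (ψ (P n l33))) 1 = 20 ∧ ev (L F (ψ (P n l33))) 1 = 43)) := by
  have q3 := pat3 hn h2 hψ
  have q33 := pat33 hn h2 hψ
  -- `a = (0 1 2)`, `b = (3 4 5)`
  have a3 : ψ (P n l3) ^ 3 = 1 := psi_pow_one hn (by decide) (by decide)
  have b3 : ψ (P n wb) ^ 3 = 1 := psi_pow_one hn (by decide) (by decide)
  have cb := ev_cj (F := F) (ψ := ψ) hn (x := wb) (c := [(0, 3), (1, 4), (2, 5), (6, 7)]) (r := l3) (by decide)
    (by decide) (by decide) (by decide)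
  have ab : ψ (P n l3) * ψ (P n wb) = ψ (P n (l3 ++ wb)) := by rw [← map_mul, P_append hn (by decide) (by decide)]
  have ba : ψ (P n wb) * ψ (P n l3) = ψ (P n (l3 ++ wb)) := by
    rw [← map_mul, ← P_append hn (by decide) (by decide),
      (P_eq_iff hn (show vl 8 (wb ++ l3) = true by decide) (show vl 8 (l3 ++ wb) = true by decide)).2 (by decide)]
  have bi : (ψ (P n wb))⁻¹ = ψ (P n wbi) := by
    rw [inv_eq_iff_mul_eq_one, ← map_mul, ← P_append hn (by decide) (by decide),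
      (P_eq_iff hn (show vl 8 (wb ++ wbi) = true by decide) (l' := []) rfl).2 (by decide), P_nil, map_one]
  have abi : ψ (P n l3) * (ψ (P n wb))⁻¹ = ψ (P n (l3 ++ wbi)) := by
    rw [bi, ← map_mul, P_append hn (by decide) (by decide)]
  have cab := ev_cj (F := F) (ψ := ψ) hn (x := l3 ++ wb) (c := [(3, 7), (7, 6)]) (r := l33) (by decide) (by decide)
    (by decide) (by decide)
  have cabi := ev_cj (F := F) (ψ := ψ) hn (x := l3 ++ wbi) (c := [(3, 6), (6, 4)]) (r := l33) (by decide) (by decide)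
    (by decide) (by decide)
  have hab : ψ (P n l3) * ψ (P n wb) = ψ (P n wb) * ψ (P n l3) := by rw [ab, ba]
  -- `s = (0 1 2)(3 4 5)`, `t = (0 1 2)(3 5 4)`
  have s3 : ψ (P n (l3 ++ wb)) ^ 3 = 1 := psi_pow_one hn (by decide) (by decide)
  have t3 : ψ (P n (l3 ++ wbi)) ^ 3 = 1 := psi_pow_one hn (by decide) (by decide)
  have st : ψ (P n (l3 ++ wb)) * ψ (P n (l3 ++ wbi)) = ψ (P n ((l3 ++ wb) ++ (l3 ++ wbi))) := by
    rw [← map_mul, ← P_append hn (by decide) (by decide)]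
  have ts : ψ (P n (l3 ++ wbi)) * ψ (P n (l3 ++ wb)) = ψ (P n ((l3 ++ wb) ++ (l3 ++ wbi))) := by
    rw [← map_mul, ← P_append hn (by decide) (by decide),
      (P_eq_iff hn (show vl 8 ((l3 ++ wbi) ++ (l3 ++ wb)) = true by decide)
        (show vl 8 ((l3 ++ wb) ++ (l3 ++ wbi)) = true by decide)).2 (by decide)]
  have ti : (ψ (P n (l3 ++ wbi)))⁻¹ = ψ (P n [(3, 4), (4, 5), (1, 2), (0, 1)]) := by
    rw [inv_eq_iff_mul_eq_one, ← map_mul, ← P_append hn (by decide) (by decide),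
      (P_eq_iff hn (show vl 8 ((l3 ++ wbi) ++ [(3, 4), (4, 5), (1, 2), (0, 1)]) = true by decide) (l' := []) rfl).2
        (by decide), P_nil, map_one]
  have sti : ψ (P n (l3 ++ wb)) * (ψ (P n (l3 ++ wbi)))⁻¹ = ψ (P n ((l3 ++ wb) ++ [(3, 4), (4, 5), (1, 2), (0, 1)])) := by
    rw [ti, ← map_mul, ← P_append hn (by decide) (by decide)]
  have cst := ev_cj (F := F) (ψ := ψ) hn (x := (l3 ++ wb) ++ (l3 ++ wbi)) (c := [(1, 2), (6, 7)]) (r := l3) (by decide)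
    (by decide) (by decide) (by decide)
  have csti := ev_cj (F := F) (ψ := ψ) hn (x := (l3 ++ wb) ++ [(3, 4), (4, 5), (1, 2), (0, 1)])
    (c := [(0, 3), (1, 5), (5, 2), (2, 4)]) (r := l3) (by decide) (by decide) (by decide) (by decide)
  have hst : ψ (P n (l3 ++ wb)) * ψ (P n (l3 ++ wbi)) = ψ (P n (l3 ++ wbi)) * ψ (P n (l3 ++ wb)) := by rw [st, ts]
  -- the pairs
  have p1 := fun va la => pair49 h2 a3 b3 hab va la (cb.1.trans va) (cb.2.trans la)
    (by rw [ab, abi, cab.1, cabi.1]) (by rw [ab, abi, cab.2, cabi.2])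
  have p2 := fun va la => pair67 h2 a3 b3 hab va la (cb.1.trans va) (cb.2.trans la)
    (by rw [ab, abi, cab.1, cabi.1]) (by rw [ab, abi, cab.2, cabi.2])
  have p3 := fun (va : ev (V F (ψ (P n l33))) 1 = 20) (la : ev (L F (ψ (P n l33))) 1 = 49) =>
    pair49 h2 s3 t3 hst (cab.1.trans va) (cab.2.trans la) (cabi.1.trans va) (cabi.2.trans la)
      (by rw [st, sti, cst.1, csti.1]) (by rw [st, sti, cst.2, csti.2])
  have p4 := fun (va : ev (V F (ψ (P n l33))) 1 = 32) (la : ev (L F (ψ (P n l33))) 1 = 67) =>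
    pair67 h2 s3 t3 hst (cab.1.trans va) (cab.2.trans la) (cabi.1.trans va) (cabi.2.trans la)
      (by rw [st, sti, cst.1, csti.1]) (by rw [st, sti, cst.2, csti.2])
  rw [ab, cab.1, cab.2] at p1 p2
  rw [st, cst.1, cst.2] at p3 p4
  clear cb ab ba bi abi cab cabi hab s3 t3 st ts ti sti cst csti hst a3 b3
  generalize ev (V F (ψ (P n l3))) 1 = v3 at *
  generalize ev (V F (ψ (P n l33))) 1 = v33 at *
  generalize ev (L F (ψ (P n l3))) 1 = k3 at *
  generalize ev (L F (ψ (P n l33))) 1 = k33 at *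
  rcases q3 with ⟨rfl, rfl⟩ | ⟨rfl, rfl⟩ | ⟨rfl, rfl⟩ <;> rcases q33 with ⟨rfl, rfl⟩ | ⟨rfl, rfl⟩ | ⟨rfl, rfl⟩ <;>
    simp at p1 p2 p3 p4 ⊢

omit hn hψ in
theorem dim_9 (hn : 8 ≤ n) {W : Type*} [AddCommGroup W] [Module F W] [FiniteDimensional F W]
    (ρ : Representation F ↥(alternatingGroup (Fin n)) W) :
    9 * (finrank F ↥(inv ρ (Tg n g9)) : ℚ) = om ρ 1 + 4 * om ρ (P n l3) + 4 * om ρ (P n l33) := by
  have h := dimC hn chkG_9 chkC_9 (N := 9) rfl (K := 3) rfl (natCast_ne_zero_of_odd h2 rfl) cnt_9 ρ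
  simp only [r9, Finset.sum_range_succ, Finset.sum_range_zero, List.getD_cons_zero, List.getD_cons_succ, P_nil] at h
  push_cast at h
  linear_combination h

omit hn hψ in
theorem dim_21 (hn : 8 ≤ n) {W : Type*} [AddCommGroup W] [Module F W] [FiniteDimensional F W]
    (ρ : Representation F ↥(alternatingGroup (Fin n)) W) :
    21 * (finrank F ↥(inv ρ (Tg n g21)) : ℚ) = om ρ 1 + 3 * om ρ (P n w7) + 3 * om ρ (P n w7i) +
      14 * om ρ (P n l33) := by
  have h := dimC hn chkG_21 chkC_21 (N := 21) rfl (K := 4) rfl (natCast_ne_zero_of_odd h2 rfl) cnt_21 ρ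
  simp only [r21, Finset.sum_range_succ, Finset.sum_range_zero, List.getD_cons_zero, List.getD_cons_succ, P_nil] at h
  push_cast at h
  linear_combination h

/-- the elements of order 15 -/
theorem typ15 : (ev (V F (ψ (P n l3))) 1 = 32 → ev (V F (ψ (P n w53))) 1 = 0 ∨ ev (V F (ψ (P n w53))) 1 = 8) ∧
    (ev (V F (ψ (P n l3))) 1 = 20 → ev (V F (ψ (P n w53))) 1 = 4 ∨ ev (V F (ψ (P n w53))) 1 = 12) ∧
    (ev (L F (ψ (P n l3))) 1 = 43 → ev (L F (ψ (P n w53))) 1 = 15) := by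
  have h5 := d5 hn h2 hψ
  have c3 := ev_cj (F := F) (ψ := ψ) hn (x := pwl w53 3) (c := [(1, 3), (3, 4), (4, 2), (6, 7)]) (r := w5) (by decide)
    (by decide) (by decide) (by decide)
  have c5 := ev_cj (F := F) (ψ := ψ) hn (x := pwl w53 5) (c := [(0, 5), (5, 3), (1, 7), (2, 6)]) (r := l3) (by decide)
    (by decide) (by decide) (by decide)
  rw [P_pwl hn (by decide), map_pow] at c3 c5
  have h := fifteen_rat h2 (psi_pow_one (ψ := ψ) hn (x := w53) (k := 15) (by decide) (by decide))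
    (rat_cj hn (x := w53) (c := [(1, 2), (2, 4), (4, 3), (6, 7)]) (by decide) (by decide) (by decide))
    (c3.1.trans h5.1) (c3.2.trans h5.2)
  rw [c5.1, c5.2] at h
  exact h

/-- the types `(20, 43)` do not occur -/
theorem not_43 : ¬ (ev (L F (ψ (P n l3))) 1 = 43 ∧ ev (L F (ψ (P n l33))) 1 = 43) := by
  rintro ⟨h3, h33⟩
  have h15 := (typ15 hn h2 hψ).2.2 h3
  have hd := dim_9 h2 hn (MonoidHom.comp (L F) ψ)
  have o3 : orderOf (P n l3) = 3 := orderOf_P hn (by decide +kernel)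
  have o33 : orderOf (P n l33) = 3 := orderOf_P hn (by decide +kernel)
  have f133 : finrank F (chevE7.Idx → F) = 133 := finrank_L
  rw [om_one, om_prime _ Nat.prime_three o3, om_prime _ Nat.prime_three o33, f133] at hd
  have e3 : ev ((MonoidHom.comp (L F) ψ : Representation F ↥(alternatingGroup (Fin n)) (chevE7.Idx → F)) (P n l3)) 1 = 43 :=
    h3
  have e33 : ev ((MonoidHom.comp (L F) ψ : Representation F ↥(alternatingGroup (Fin n)) (chevE7.Idx → F)) (P n l33)) 1 =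
    43 := h33
  rw [e3, e33] at hd
  have hd' : finrank F ↥(inv (MonoidHom.comp (L F) ψ) (Tg n g9)) = 13 := by
    have : (finrank F ↥(inv (MonoidHom.comp (L F) ψ) (Tg n g9)) : ℚ) = 13 := by
      push_cast at hd
      linarith
    exact_mod_cast this
  -- the `A₅`-lemma
  set ρ : Representation F ↥(alternatingGroup (Fin n)) (chevE7.Idx → F) := MonoidHom.comp (L F) ψ with hρ
  have hcomm : P n l3 * P n y3 = P n y3 * P n l3 := by
    rw [← P_append hn (by decide) (by decide), ← P_append hn (by decide) (by decide),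
      (P_eq_iff hn (show vl 8 (l3 ++ y3) = true by decide) (show vl 8 (y3 ++ l3) = true by decide)).2 (by decide)]
  have hU : ∀ u ∈ Module.End.eigenspace (ρ (P n y3)) 1, ρ (P n w3) u ∈ Module.End.eigenspace (ρ (P n y3)) 1 := by
    intro u hu
    rw [Module.End.mem_eigenspace_iff, one_smul] at hu ⊢
    have h1 : ρ (P n y3) (ρ (P n l3) u) = ρ (P n l3) (ρ (P n y3) u) := by
      rw [← Module.End.mul_apply, ← map_mul, ← hcomm, map_mul, Module.End.mul_apply]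
    rw [hu] at h1
    exact h1
  have h := le_of_cert h2 (show 5 ≤ n by omega) ρ cert3 (Module.End.eigenspace (ρ (P n y3)) 1) hU
  have h1 : finrank F ↥(Module.End.eigenspace (ρ (P n w3)) 1 ⊓ Module.End.eigenspace (ρ (P n y3)) 1) ≤ 13 := by
    rw [← hd']
    refine Submodule.finrank_mono fun v hv => ?_
    obtain ⟨hv1, hv2⟩ := hv
    rw [SetLike.mem_coe, Module.End.mem_eigenspace_iff, one_smul] at hv1 hv2
    unfold Tg
    rw [mem_inv_closure]
    rintro x ⟨g, hg, rfl⟩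
    simp only [g9, List.mem_cons, List.not_mem_nil, or_false] at hg
    rcases hg with rfl | rfl
    · exact hv1
    · exact hv2
  have h3' : finrank F ↥(Module.End.eigenspace (ρ (P n w53)) 1) ≤
      finrank F ↥(Module.End.eigenspace (ρ (P n w5)) 1 ⊓ Module.End.eigenspace (ρ (P n y3)) 1) := by
    refine Submodule.finrank_mono fun v hv => ?_
    rw [Module.End.mem_eigenspace_iff, one_smul] at hv
    have hp : ∀ k : ℕ, ρ (P n w53 ^ k) v = v := by
      intro k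
      induction k with
      | zero => rw [pow_zero, map_one]; rfl
      | succ k ih => rw [pow_succ, map_mul, Module.End.mul_apply, hv, ih]
    refine ⟨?_, ?_⟩
    · rw [SetLike.mem_coe, Module.End.mem_eigenspace_iff, one_smul, ← P_pow_eq hn (l := w53) (k := 6) (by decide)
        (by decide) (by decide)]
      exact hp 6
    · rw [SetLike.mem_coe, Module.End.mem_eigenspace_iff, one_smul, ← P_pow_eq hn (l := w53) (k := 10) (by decide)
        (by decide) (by decide)]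
      exact hp 10
  have h4 : ev (ρ (P n w53)) 1 = 15 := h15
  unfold ev at h4
  omega

omit h2 hψ [Finite F] in
theorem ev_w7i : ev (V F (ψ (P n w7i))) 1 = ev (V F (ψ (P n w7))) 1 := by
  have h1 : P n w7i = (P n w7)⁻¹ := by
    rw [eq_comm, inv_eq_iff_mul_eq_one, ← P_append hn (by decide) (by decide),
      (P_eq_iff hn (show vl 8 (w7 ++ w7i) = true by decide) (l' := []) rfl).2 (by decide), P_nil]
  rw [h1, map_inv]
  unfold ev
  have h3 : ∀ (y : Gh F) (v : D1 → F), V F y v = v → V F y⁻¹ v = v := by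
    intro y v h
    nth_rewrite 1 [← h]
    rw [← Module.End.mul_apply, ← map_mul, inv_mul_cancel, map_one, Module.End.one_apply]
  have h2 : Module.End.eigenspace (V F (ψ (P n w7))⁻¹) 1 = Module.End.eigenspace (V F (ψ (P n w7))) 1 := by
    ext v
    rw [Module.End.mem_eigenspace_iff, Module.End.mem_eigenspace_iff, one_smul]
    constructor
    · intro h
      have h4 := h3 _ v h
      rwa [inv_inv] at h4
    · exact h3 _ v
  rw [h2]

/-- type `33` of dimension 32 -/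
theorem d7_20 (h33 : ev (V F (ψ (P n l33))) 1 = 32) : ev (V F (ψ (P n w7))) 1 = 20 := by
  have h7 := d7 hn h2 hψ
  have hd := dim_21 h2 hn (MonoidHom.comp (V F) ψ)
  have o7 : orderOf (P n w7) = 7 := orderOf_P hn (by decide +kernel)
  have o7i : orderOf (P n w7i) = 7 := orderOf_P hn (by decide +kernel)
  have o33 : orderOf (P n l33) = 3 := orderOf_P hn (by decide +kernel)
  have f56 : finrank F (D1 → F) = 56 := finrank_V
  have hi := ev_w7i (F := F) (ψ := ψ) hn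
  rw [om_one, om_prime _ (by norm_num : Nat.Prime 7) o7, om_prime _ (by norm_num : Nat.Prime 7) o7i,
    om_prime _ Nat.prime_three o33, f56] at hd
  set ρ : Representation F ↥(alternatingGroup (Fin n)) (D1 → F) := MonoidHom.comp (V F) ψ with hρ
  have e33 : ev (ρ (P n l33)) 1 = 32 := h33
  have ei : ev (ρ (P n w7i)) 1 = ev (ρ (P n w7)) 1 := hi
  have h1 : finrank F ↥(inv ρ (Tg n g21)) ≤ ev (ρ (P n w7)) 1 := by
    refine Submodule.finrank_mono fun v hv => ?_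
    rw [Module.End.mem_eigenspace_iff, one_smul]
    exact hv _ (Subgroup.subset_closure ⟨w7, List.mem_cons_self, rfl⟩)
  have h7' : ev (ρ (P n w7)) 1 = 2 ∨ ev (ρ (P n w7)) 1 = 8 ∨ ev (ρ (P n w7)) 1 = 20 := h7
  show ev (ρ (P n w7)) 1 = 20
  rw [e33, ei] at hd
  generalize ev (ρ (P n w7)) 1 = a at *
  generalize finrank F ↥(inv ρ (Tg n g21)) = b at *
  have hd' : 21 * (b : ℚ) = 7 * a + 280 := by
    rw [hd]; push_cast; ring
  have hd'' : 21 * b = 7 * a + 280 := by exact_mod_cast hd'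
  omega

/-- **the patterns for `p = 2`, `n ≥ 8`** -/
theorem pat2w : (ev (V F (ψ (P n w5))) 1 = 16 ∧ ev (L F (ψ (P n w5))) 1 = 33) ∧
    (((ev (V F (ψ (P n l3))) 1 = 32 ∧ ev (L F (ψ (P n l3))) 1 = 67) ∧
      (ev (V F (ψ (P n l33))) 1 = 20 ∧ ev (L F (ψ (P n l33))) 1 = 49) ∧
      (ev (V F (ψ (P n w7))) 1 = 2 ∨ ev (V F (ψ (P n w7))) 1 = 8 ∨ ev (V F (ψ (P n w7))) 1 = 20) ∧
      (ev (V F (ψ (P n w53))) 1 = 0 ∨ ev (V F (ψ (P n w53))) 1 = 8)) ∨
    ((ev (V F (ψ (P n l3))) 1 = 20 ∧ ev (L F (ψ (P n l3))) 1 = 49) ∧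
      (ev (V F (ψ (P n l33))) 1 = 32 ∧ ev (L F (ψ (P n l33))) 1 = 67) ∧ ev (V F (ψ (P n w7))) 1 = 20 ∧
      (ev (V F (ψ (P n w53))) 1 = 4 ∨ ev (V F (ψ (P n w53))) 1 = 12))) := by
  refine ⟨d5 hn h2 hψ, ?_⟩
  have h15 := typ15 hn h2 hψ
  rcases typ3 hn h2 hψ with ⟨h3, h33⟩ | ⟨h3, h33⟩ | ⟨h3, h33⟩
  · exact Or.inl ⟨h3, h33, d7 hn h2 hψ, h15.1 h3.1⟩
  · exact Or.inr ⟨h3, h33, d7_20 hn h2 hψ h33.1, h15.2.1 h3.1⟩
  · exact absurd ⟨h3.2, h33.2⟩ (not_43 hn h2 hψ)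

end types

end Cfsg.Agent.R2.T1.Pat2
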